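import Cfsg.Agent.CentralExt.Basic

/-!
A central element of order two among the commutators of a group gives an even Schur multiplier of the
simple quotient by the centre.
-/

set_option autoImplicit false

namespace Cfsg.Agent.SporOut

open Subgroup
open scoped commutatorElement

theorem two_dvd_schurMult {Γ : Type*} [Group Γ] [Finite Γ]
    [IsSimpleGroup (Γ ⧸ center Γ)] (hna : ∃ a b : Γ ⧸ center Γ, a * b ≠ b * a)
    {z : Γ} (hz : z ∈ center Γ) (hzc : z ∈ commutator Γ) (hz1 : z ≠ 1) (hz2 : z ^ 2 = 1) :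
    2 ∣ Nat.card (CentralExt.schurMult (Γ ⧸ center Γ)) := by
  let D : Subgroup Γ := commutator Γ
  let σ : D →* Γ ⧸ center Γ := (QuotientGroup.mk' (center Γ)).comp D.subtype
  have hperf : commutator (Γ ⧸ center Γ) = ⊤ := by
    rcases IsSimpleGroup.eq_bot_or_eq_top_of_normal (commutator (Γ ⧸ center Γ)) inferInstance with h | h
    · exfalso
      obtain ⟨a, b, hab⟩ := hna
      refine hab (commutatorElement_eq_one_iff_mul_comm.1 ?_)
      rw [← Subgroup.mem_bot, ← h]
      exact Subgroup.commutator_mem_commutator (mem_top a) (mem_top b)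
    · exact h
  have hsurj : Function.Surjective σ := by
    intro q
    have hq : q ∈ D.map (QuotientGroup.mk' (center Γ)) := by
      show q ∈ (commutator Γ).map _
      rw [_root_.commutator_def, Subgroup.map_commutator,
        Subgroup.map_top_of_surjective _ (QuotientGroup.mk'_surjective _), ← _root_.commutator_def, hperf]
      exact mem_top q
    obtain ⟨x, hx, rfl⟩ := hq
    exact ⟨⟨x, hx⟩, rfl⟩
  have hmul : ∀ g : Γ, ∃ d ∈ D, ∃ c ∈ center Γ, g = d * c := by
    intro g
    obtain ⟨⟨d, hd⟩, he⟩ := hsurj (g : Γ ⧸ center Γ)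
    exact ⟨d, hd, d⁻¹ * g, QuotientGroup.eq.1 he, by group⟩
  have hD : ⁅D, D⁆ = D := by
    refine le_antisymm (Subgroup.commutator_mono le_top le_top) ?_
    show commutator Γ ≤ _
    rw [_root_.commutator_def, Subgroup.commutator_le]
    intro g _ g' _
    obtain ⟨d, hd, c, hc, rfl⟩ := hmul g
    obtain ⟨d', hd', c', hc', rfl⟩ := hmul g'
    have hcc := Subgroup.mem_center_iff.1 hc
    have hcc' := Subgroup.mem_center_iff.1 hc'
    have e : ⁅d * c, d' * c'⁆ = ⁅d, d'⁆ := by
      simp only [commutatorElement_def, mul_inv_rev]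
      calc d * c * (d' * c') * (c⁻¹ * d⁻¹) * (c'⁻¹ * d'⁻¹)
          = d * (c * (d' * c')) * (c⁻¹ * d⁻¹) * (c'⁻¹ * d'⁻¹) := by group
        _ = d * ((d' * c') * c) * (c⁻¹ * d⁻¹) * (c'⁻¹ * d'⁻¹) := by rw [hcc (d' * c')]
        _ = d * d' * (c' * d⁻¹) * c'⁻¹ * d'⁻¹ := by group
        _ = d * d' * (d⁻¹ * c') * c'⁻¹ * d'⁻¹ := by rw [hcc' d⁻¹]
        _ = d * d' * d⁻¹ * d'⁻¹ := by group
    rw [e]
    exact Subgroup.commutator_mem_commutator hd hd'
  have hσ : Cfsg.IsStemExtension σ := by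
    refine ⟨hsurj, ?_, ?_⟩
    · intro x hx
      have hxc : (x : Γ) ∈ center Γ := (QuotientGroup.eq_one_iff (x : Γ)).1 hx
      exact Subgroup.mem_center_iff.2 fun y => Subtype.ext (Subgroup.mem_center_iff.1 hxc y)
    · intro x _
      have h : (commutator ↥D).map D.subtype = D := by
        rw [_root_.commutator_def, Subgroup.map_commutator, ← MonoidHom.range_eq_map, Subgroup.range_subtype, hD]
      obtain ⟨y, hy, e⟩ : (x : Γ) ∈ (commutator ↥D).map D.subtype := h.symm ▸ x.2
      rwa [← Subtype.ext e]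
  refine dvd_trans ?_ (CentralExt.card_ker_dvd_schurMult hσ)
  let zk : σ.ker := ⟨⟨z, hzc⟩, (QuotientGroup.eq_one_iff z).2 hz⟩
  have ho : orderOf zk = 2 := orderOf_eq_prime
    (Subtype.ext (Subtype.ext hz2)) fun h => hz1 (congrArg (fun w : σ.ker => ((w : D) : Γ)) h)
  exact ho ▸ orderOf_dvd_natCard zk

end Cfsg.Agent.SporOut
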