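import Cfsg.Prelude.Def_Spor_Ru
import Cfsg.Agent.SporOut.CentralLower

/-!
The right multiplications by the quaternion units `j` and `k` are automorphisms of the Rudvalis lattice
with commutator `-1`, so the Schur multiplier of the Rudvalis group is even.
-/

set_option autoImplicit false

namespace Cfsg.Agent.SporOut.RuCover

open Cfsg.Spor Subgroup
open scoped commutatorElement

theorem gI_mul_gI : gI * gI = -1 := by decide

theorem rj_rj (v : RuVec) : ruRj (ruRj v) = -v := by
  funext p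
  obtain ⟨n, t⟩ := p
  fin_cases t <;> simp [ruRj, ← mul_assoc, gI_mul_gI]

theorem rk_rk (v : RuVec) : ruRk (ruRk v) = -v := by
  funext p
  obtain ⟨n, t⟩ := p
  fin_cases t <;> simp [ruRk, ← mul_assoc, gI_mul_gI]

theorem rj_rk (v : RuVec) : ruRj (ruRk v) = -ruRk (ruRj v) := by
  funext p
  obtain ⟨n, t⟩ := p
  fin_cases t <;> simp [ruRj, ruRk, ← mul_assoc, gI_mul_gI]

theorem mem_closed {f : RuVec → RuVec}
    (hf : ∀ L ∈ ruClosed, ∀ v ∈ L, f v ∈ L) {v : RuVec} (hv : v ∈ ruLattice) : f v ∈ ruLattice := by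
  rw [ruLattice, AddSubgroup.mem_sInf] at hv ⊢
  exact fun L hL => hf L hL v (hv L hL)

/-- A map of square `-1` as a permutation of the lattice. -/
def sqNeg (f : RuVec → RuVec) (hf : ∀ L ∈ ruClosed, ∀ v ∈ L, f v ∈ L)
    (h2 : ∀ v, f (f v) = -v) (hneg : ∀ v, f (-v) = -f v) : Equiv.Perm ruLattice where
  toFun v := ⟨f v, mem_closed hf v.2⟩
  invFun v := ⟨-f v, neg_mem (mem_closed hf v.2)⟩
  left_inv v := Subtype.ext (by simp [h2])
  right_inv v := Subtype.ext (by simp [hneg, h2])

theorem rj_add (v w : RuVec) : ruRj (v + w) = ruRj v + ruRj w := by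
  funext p
  obtain ⟨n, t⟩ := p
  fin_cases t <;> simp [ruRj, mul_add, add_comm]

theorem rk_add (v w : RuVec) : ruRk (v + w) = ruRk v + ruRk w := by
  funext p
  obtain ⟨n, t⟩ := p
  fin_cases t <;> simp [ruRk, mul_add, add_comm]

theorem rj_neg (v : RuVec) : ruRj (-v) = -ruRj v := by
  funext p
  obtain ⟨n, t⟩ := p
  fin_cases t <;> simp [ruRj]

theorem rk_neg (v : RuVec) : ruRk (-v) = -ruRk v := by
  funext p
  obtain ⟨n, t⟩ := p
  fin_cases t <;> simp [ruRk]

theorem rj_gI (v : RuVec) : ruRj (gI • v) = gI • ruRj v := by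
  funext p
  obtain ⟨n, t⟩ := p
  fin_cases t <;> simp [ruRj, Pi.smul_apply, mul_comm, mul_left_comm]

theorem rk_gI (v : RuVec) : ruRk (gI • v) = gI • ruRk v := by
  funext p
  obtain ⟨n, t⟩ := p
  fin_cases t <;> simp [ruRk, Pi.smul_apply, mul_comm, mul_left_comm]

theorem norm_gI : gI.norm = 1 := by decide

theorem rj_norm (v : RuVec) : ruNorm (ruRj v) = ruNorm v := by
  simp only [ruNorm, Fintype.sum_prod_type, Fin.sum_univ_four]
  refine Finset.sum_congr rfl fun n _ => ?_
  simp [ruRj, Zsqrtd.norm_mul, norm_gI, Zsqrtd.norm_neg]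
  ring

theorem rk_norm (v : RuVec) : ruNorm (ruRk v) = ruNorm v := by
  simp only [ruNorm, Fintype.sum_prod_type, Fin.sum_univ_four]
  refine Finset.sum_congr rfl fun n _ => ?_
  simp [ruRk, Zsqrtd.norm_mul, norm_gI, Zsqrtd.norm_neg]
  ring

/-- Multiplication by `j`. -/
def jEl : fourRu :=
  ⟨sqNeg ruRj (fun _ hL v hv => ((hL.2 v hv).2.1)) rj_rj rj_neg,
    fun v w => Subtype.ext (rj_add v w), fun v => Subtype.ext (rj_gI v), fun v => rj_norm v⟩

/-- Multiplication by `k`. -/
def kEl : fourRu :=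
  ⟨sqNeg ruRk (fun _ hL v hv => ((hL.2 v hv).2.2.1)) rk_rk rk_neg,
    fun v w => Subtype.ext (rk_add v w), fun v => Subtype.ext (rk_gI v), fun v => rk_norm v⟩

theorem add_neg_apply (f : fourRu) (v : ruLattice) : (f : Equiv.Perm ruLattice) (-v) = -(f : Equiv.Perm ruLattice) v :=
  map_neg (AddMonoidHom.mk' _ f.2.1) v

theorem jj_apply (v : ruLattice) : ((jEl * jEl : fourRu) : Equiv.Perm ruLattice) v = -v :=
  Subtype.ext (rj_rj v)

theorem jj_eq_comm : (jEl * jEl : fourRu) = ⁅jEl, kEl⁆ := by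
  have h : jEl * kEl = (jEl * jEl) * (kEl * jEl) := by
    refine Subtype.ext (Equiv.ext fun v => ?_)
    show (jEl : Equiv.Perm ruLattice) ((kEl : Equiv.Perm ruLattice) v) =
      ((jEl * jEl : fourRu) : Equiv.Perm ruLattice) ((kEl : Equiv.Perm ruLattice) ((jEl : Equiv.Perm ruLattice) v))
    rw [jj_apply]
    exact Subtype.ext (rj_rk v)
  rw [commutatorElement_def, h]
  group

theorem jj_central : (jEl * jEl : fourRu) ∈ center fourRu := by
  refine mem_center_iff.2 fun g => Subtype.ext (Equiv.ext fun v => ?_)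
  show (g : Equiv.Perm ruLattice) (((jEl * jEl : fourRu) : Equiv.Perm ruLattice) v) =
    ((jEl * jEl : fourRu) : Equiv.Perm ruLattice) ((g : Equiv.Perm ruLattice) v)
  rw [jj_apply, jj_apply, add_neg_apply]

theorem jj_ne_one : (jEl * jEl : fourRu) ≠ 1 := by
  intro h
  have hmem : (ruTable.head (by simp [ruTable])) ∈ ruLattice := by
    rw [ruLattice, AddSubgroup.mem_sInf]
    exact fun L hL => hL.1 _ (List.head_mem _)
  have hv : -(ruTable.head (by simp [ruTable])) = ruTable.head (by simp [ruTable]) :=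
    congrArg Subtype.val (((jj_apply ⟨_, hmem⟩).symm.trans
      (by rw [h]; rfl) : -(⟨_, hmem⟩ : ruLattice) = ⟨_, hmem⟩))
  revert hv
  decide +kernel

theorem jj_sq : (jEl * jEl : fourRu) ^ 2 = 1 := by
  refine Subtype.ext (Equiv.ext fun v => ?_)
  rw [pow_two]
  show ((jEl * jEl : fourRu) : Equiv.Perm ruLattice) (((jEl * jEl : fourRu) : Equiv.Perm ruLattice) v) = v
  rw [jj_apply, jj_apply, neg_neg]

/-- The Schur multiplier of the Rudvalis group is even. -/
theorem two_dvd_schurMult_ru (hc : Nat.card (center fourRu) = 4)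
    (hR : Nat.card Ru = 145926144000) [IsSimpleGroup Ru] :
    2 ∣ Nat.card (CentralExt.schurMult Ru) := by
  have hfour : Finite fourRu := Nat.finite_of_card_ne_zero (by
    rw [← (center fourRu).card_mul_index, hc]
    show 4 * Nat.card Ru ≠ 0
    rw [hR]; norm_num)
  refine two_dvd_schurMult ?_ jj_central ?_ jj_ne_one jj_sq
  · by_contra hab
    push Not at hab
    let _ : CommGroup Ru := { (inferInstance : Group Ru) with mul_comm := hab }
    have := IsSimpleGroup.prime_card (α := Ru)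
    rw [hR] at this
    exact absurd this (Nat.not_prime_of_dvd_of_lt (m := 2) (by norm_num) (by norm_num) (by norm_num))
  · rw [jj_eq_comm]
    exact commutator_mem_commutator (mem_top _) (mem_top _)

end Cfsg.Agent.SporOut.RuCover
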