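import Cfsg.Agent.SchurBound.Bound

/-!
Assembling the check of a certificate from small pieces: chunks of rows, precomputed equations and,
in place of the list of all elements, orbit witnesses that the generators form a proper series.
-/

set_option autoImplicit false

namespace Cfsg.Agent.SporOut

open Cfsg.Agent.SchurCert Cfsg.Agent.SchurBound

/-- A property on each chunk of a list holds on the list. -/
theorem all_of_chunks {α : Type*} {L : List α} {f : α → Bool} {w m : ℕ} (hm : L.length ≤ w * m)
    (h : ∀ k < m, ((L.drop (w * k)).take w).all f = true) : L.all f = true := by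
  rw [List.all_eq_true]
  intro x hx
  obtain ⟨i, hi, rfl⟩ := List.getElem_of_mem hx
  have hw : 0 < w := Nat.pos_of_ne_zero fun h0 => by rw [h0, Nat.zero_mul] at hm; omega
  have hk : i / w < m := (Nat.div_lt_iff_lt_mul hw).2 (by rw [Nat.mul_comm]; omega)
  have hmod : i % w < w := Nat.mod_lt i hw
  have hsum : w * (i / w) + i % w = i := Nat.div_add_mod i w
  refine List.all_eq_true.1 (h _ hk) _ ?_
  rw [List.mem_iff_getElem]
  refine ⟨i % w, by simp; omega, ?_⟩
  simp [List.getElem_take, List.getElem_drop, hsum]

/-- A map agrees with a list if it does on each chunk. -/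
theorem map_of_chunks {α β : Type*} {L : List α} {M : List β} {f : α → β} {w m : ℕ}
    (hm : L.length ≤ w * m) (hlen : M.length = L.length)
    (h : ∀ k < m, ((L.drop (w * k)).take w).map f = (M.drop (w * k)).take w) : L.map f = M := by
  refine List.ext_getElem (by simp [hlen]) fun i h1 h2 => ?_
  rw [List.length_map] at h1
  have hw : 0 < w := Nat.pos_of_ne_zero fun h0 => by rw [h0, Nat.zero_mul] at hm; omega
  have hk : i / w < m := (Nat.div_lt_iff_lt_mul hw).2 (by rw [Nat.mul_comm]; omega)
  have hmod : i % w < w := Nat.mod_lt i hw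
  have hsum : w * (i / w) + i % w = i := Nat.div_add_mod i w
  have := congrArg (fun l => l[i % w]?) (h _ hk)
  simp only [List.getElem?_map, List.getElem?_take, if_pos hmod, List.getElem?_drop, hsum,
    List.getElem?_eq_getElem h1, List.getElem?_eq_getElem h2, Option.map_some, Option.some.injEq] at this
  simpa using this

/-- The linear part of a check with the equations given. -/
def linWith (B : BCert) (es : List (List ℕ × List ℕ)) : Bool :=
  (List.range B.D.P.n).all fun j =>
    sameForm B.q B.D.nvar
        (B.scaled (PC.pVar j :: B.D.betaW (B.D.P.powWord j)) ++ (B.D.comboEq es (PC.pVar j)).1)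
        (B.D.comboEq es (PC.pVar j)).2 &&
      (List.range j).all fun i => sameForm B.q B.D.nvar
        (B.scaled (PC.cVar j i :: B.D.betaW (B.D.P.cjWord j i)) ++
          (B.D.comboEq es (PC.cVar j i)).1)
        (B.scaled (B.D.beta.getD i []) ++ (B.D.comboEq es (PC.cVar j i)).2)

/-- The relations of the presentation on the codes. -/
def relsOK (D : SchurCert.Cert) (mul : ℕ → ℕ → ℕ) (one j : ℕ) : Bool :=
  Nat.beq (Cert.powCode mul one (D.gens.getD j one) D.P.p) (D.img mul one (D.P.powWord j)) &&
    ((List.range j).all fun i => Nat.beq (mul (D.gens.getD j one) (D.gens.getD i one))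
      (mul (D.img mul one (D.P.cjWord j i)) (D.gens.getD j one)))

theorem count_of_sameForm {q m : ℕ} {L₁ L₂ : List ℕ} (h : sameForm q m L₁ L₂ = true) :
    ∀ l < m, L₁.count l % q = L₂.count l % q := by
  intro l hl
  obtain ⟨h1, h2⟩ := lt_of_sameForm h
  simp only [sameForm, Bool.and_eq_true, List.all_eq_true, List.mem_range, Nat.blt_eq] at h
  obtain ⟨⟨⟨-, hl1⟩, hl2⟩, h3⟩ := h
  have e := Nat.eq_of_beq_eq_true (h3 l hl)
  rwa [packCount_eq L₁ h1, packCount_eq L₂ h2, pow_mul, show (16777216 : ℕ) = 2 ^ 24 by norm_num,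
    digit_sum (c := fun i => L₁.count i) hl
      (fun i => lt_of_le_of_lt List.count_le_length (by simpa using hl1)),
    digit_sum (c := fun i => L₂.count i) hl
      (fun i => lt_of_le_of_lt List.count_le_length (by simpa using hl2))] at e

theorem sameForm_of {q m : ℕ} {L₁ L₂ : List ℕ} (h1 : ∀ x ∈ L₁, x < m) (h2 : ∀ x ∈ L₂, x < m)
    (l1 : L₁.length < 16777216) (l2 : L₂.length < 16777216)
    (h : ∀ l < m, L₁.count l % q = L₂.count l % q) : sameForm q m L₁ L₂ = true := by
  simp only [sameForm, Bool.and_eq_true, List.all_eq_true, List.mem_range, Nat.blt_eq]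
  refine ⟨⟨⟨⟨h1, h2⟩, l1⟩, l2⟩, fun l hl => ?_⟩
  rw [packCount_eq L₁ h1, packCount_eq L₂ h2, pow_mul, show (16777216 : ℕ) = 2 ^ 24 by norm_num,
    digit_sum (c := fun i => L₁.count i) hl (fun i => lt_of_le_of_lt List.count_le_length (by simpa using l1)),
    digit_sum (c := fun i => L₂.count i) hl (fun i => lt_of_le_of_lt List.count_le_length (by simpa using l2)),
    h l hl]
  exact Nat.beq_refl _

/-- An equation agrees with a reduced one and is not too long. -/
def redOK (q m : ℕ) (e s : List ℕ × List ℕ) : Bool :=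
  sameForm q m e.1 s.1 && sameForm q m e.2 s.2 && Nat.blt e.1.length 32768 && Nat.blt e.2.length 32768

theorem sameForm_flatMap {q m : ℕ} (cs : List ℕ) (hcs : cs.length ≤ 500) (P₁ P₂ : List ℕ)
    (f g f' g' : ℕ → List ℕ) (hf : ∀ r, sameForm q m (f r) (f' r) = true ∧ (f r).length < 32768)
    (hg : ∀ r, sameForm q m (g r) (g' r) = true ∧ (g r).length < 32768)
    (hP₁ : P₁.length ≤ 50000) (hP₂ : P₂.length ≤ 50000)
    (h : sameForm q m (P₁ ++ cs.flatMap f') (P₂ ++ cs.flatMap g') = true) :
    sameForm q m (P₁ ++ cs.flatMap f) (P₂ ++ cs.flatMap g) = true := by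
  have hb := lt_of_sameForm h
  have bound : ∀ (u : ℕ → List ℕ), (∀ r, (u r).length < 32768) → ∀ L : List ℕ,
      (L.flatMap u).length ≤ L.length * 32767 := fun u hu L => by
    induction L with
    | nil => simp
    | cons a L ih =>
      rw [List.flatMap_cons, List.length_append, List.length_cons, Nat.succ_mul]
      have := hu a
      omega
  have cong : ∀ (u u' : ℕ → List ℕ), (∀ r, sameForm q m (u r) (u' r) = true) → ∀ L : List ℕ,
      ∀ l < m, (L.flatMap u).count l % q = (L.flatMap u').count l % q := fun u u' hu L l hl => by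
    induction L with
    | nil => rfl
    | cons a L ih =>
      rw [List.flatMap_cons, List.flatMap_cons, List.count_append, List.count_append, Nat.add_mod,
        count_of_sameForm (hu a) l hl, ih, ← Nat.add_mod]
  have mem : ∀ (u u' : ℕ → List ℕ), (∀ r, sameForm q m (u r) (u' r) = true) → ∀ x ∈ cs.flatMap u, x < m :=
    fun u u' hu x hx => by
      obtain ⟨r, -, hr⟩ := List.mem_flatMap.1 hx
      exact (lt_of_sameForm (hu r)).1 x hr
  refine sameForm_of ?_ ?_ ?_ ?_ fun l hl => ?_
  · intro x hx
    rcases List.mem_append.1 hx with hx | hx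
    · exact hb.1 x (List.mem_append_left _ hx)
    · exact mem f f' (fun r => (hf r).1) x hx
  · intro x hx
    rcases List.mem_append.1 hx with hx | hx
    · exact hb.2 x (List.mem_append_left _ hx)
    · exact mem g g' (fun r => (hg r).1) x hx
  · have := bound f (fun r => (hf r).2) cs
    rw [List.length_append]
    omega
  · have := bound g (fun r => (hg r).2) cs
    rw [List.length_append]
    omega
  · have e := count_of_sameForm h l hl
    rw [List.count_append, List.count_append, Nat.add_mod, ← cong f f' (fun r => (hf r).1) cs l hl,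
      ← Nat.add_mod, Nat.add_mod (P₂.count l), ← cong g g' (fun r => (hg r).1) cs l hl, ← Nat.add_mod] at e
    rw [List.count_append, List.count_append]
    exact e

/-- Side conditions for replacing equations by reduced ones. -/
def comboSmall (B : BCert) : Bool :=
  B.D.combo.all (fun cs => Nat.ble cs.length 500) &&
    (List.range B.D.P.n).all fun j =>
      Nat.ble (B.scaled (PC.pVar j :: B.D.betaW (B.D.P.powWord j))).length 50000 &&
        (List.range j).all fun i =>
          Nat.ble (B.scaled (PC.cVar j i :: B.D.betaW (B.D.P.cjWord j i))).length 50000 &&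
            Nat.ble (B.scaled (B.D.beta.getD i [])).length 50000

theorem linWith_of_reduced (B : BCert) (es es' : List (List ℕ × List ℕ)) (hlen : es.length = es'.length)
    (hred : ∀ i < es.length, redOK B.q B.D.nvar (es.getD i ([], [])) (es'.getD i ([], [])) = true)
    (hsmall : comboSmall B = true) (h : linWith B es' = true) : linWith B es = true := by
  have hr : ∀ r, (sameForm B.q B.D.nvar (es.getD r ([], [])).1 (es'.getD r ([], [])).1 = true ∧
      (es.getD r ([], [])).1.length < 32768) ∧
      (sameForm B.q B.D.nvar (es.getD r ([], [])).2 (es'.getD r ([], [])).2 = true ∧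
      (es.getD r ([], [])).2.length < 32768) := fun r => by
    by_cases hi : r < es.length
    · have h1 := hred r hi
      simp only [redOK, Bool.and_eq_true, Nat.blt_eq] at h1
      exact ⟨⟨h1.1.1.1, h1.1.2⟩, h1.1.1.2, h1.2⟩
    · rw [List.getD_eq_default _ _ (by omega), List.getD_eq_default _ _ (by omega)]
      have he : sameForm B.q B.D.nvar [] [] = true :=
        sameForm_of (by simp) (by simp) (by norm_num) (by norm_num) (fun _ _ => rfl)
      exact ⟨⟨he, by norm_num⟩, he, by norm_num⟩
  simp only [comboSmall, Bool.and_eq_true, List.all_eq_true, List.mem_range, Nat.ble_eq] at hsmall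
  obtain ⟨hc, hP⟩ := hsmall
  have hcs : ∀ k, (B.D.combo.getD k []).length ≤ 500 := fun k => by
    by_cases hk : k < B.D.combo.length
    · rw [List.getD_eq_getElem _ _ hk]
      exact hc _ (List.getElem_mem hk)
    · rw [List.getD_eq_default _ _ (by omega)]
      exact Nat.zero_le _
  simp only [linWith, List.all_eq_true, List.mem_range, Bool.and_eq_true] at h ⊢
  intro j hj
  obtain ⟨h1, h2⟩ := h j hj
  refine ⟨?_, fun i hi => ?_⟩
  · have := sameForm_flatMap (q := B.q) (m := B.D.nvar) (B.D.combo.getD (PC.pVar j) []) (hcs _)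
      _ [] _ _ _ _ (fun r => (hr r).1) (fun r => (hr r).2) (hP j hj).1 (by simp) h1
    exact this
  · exact sameForm_flatMap (q := B.q) (m := B.D.nvar) (B.D.combo.getD (PC.cVar j i) []) (hcs _)
      _ _ _ _ _ _ (fun r => (hr r).1) (fun r => (hr r).2) ((hP j hj).2 i hi).1 ((hP j hj).2 i hi).2
      (h2 i hi)

/-- Equality of the slots of two packed counts modulo `q`. -/
noncomputable def digEq (q : ℕ) (m : ℕ) : ℕ → ℕ → Bool :=
  Nat.rec (motive := fun _ => ℕ → ℕ → Bool) (fun _ _ => true)
    (fun _ ih a b => Nat.beq (Nat.mod (Nat.mod a 16777216) q) (Nat.mod (Nat.mod b 16777216) q) &&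
      ih (Nat.div a 16777216) (Nat.div b 16777216)) m

theorem digEq_spec {q : ℕ} : ∀ {m a b : ℕ}, digEq q m a b = true → ∀ l < m,
    a / 2 ^ (24 * l) % 16777216 % q = b / 2 ^ (24 * l) % 16777216 % q
  | 0, _, _, _, l, hl => absurd hl (Nat.not_lt_zero l)
  | m + 1, a, b, h, l, hl => by
    have e : digEq q (m + 1) a b = (Nat.beq (a % 16777216 % q) (b % 16777216 % q) &&
        digEq q m (a / 16777216) (b / 16777216)) := rfl
    rw [e, Bool.and_eq_true] at h
    cases l with
    | zero => simpa using Nat.eq_of_beq_eq_true h.1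
    | succ l =>
      have h2 := digEq_spec h.2 l (Nat.lt_of_succ_lt_succ hl)
      rwa [show 24 * (l + 1) = 24 + 24 * l by ring, pow_add, show (2 : ℕ) ^ 24 = 16777216 by norm_num,
        ← Nat.div_div_eq_div_mul, ← Nat.div_div_eq_div_mul]

/-- An equation is short, in range and has the listed packed counts. -/
def vecOK (m : ℕ) (e : List ℕ × List ℕ) (v : ℕ × ℕ) : Bool :=
  e.1.all (fun x => Nat.blt x m) && e.2.all (fun x => Nat.blt x m) &&
    Nat.blt e.1.length 32768 && Nat.blt e.2.length 32768 &&
    Nat.beq (packCount e.1) v.1 && Nat.beq (packCount e.2) v.2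

/-- Both sides of a variable from packed counts. -/
noncomputable def fastEq (q m : ℕ) (V : List (ℕ × ℕ)) (cs P₁ P₂ : List ℕ) : Bool :=
  P₁.all (fun x => Nat.blt x m) && P₂.all (fun x => Nat.blt x m) &&
    digEq q m (Nat.add (packCount P₁) ((cs.map fun r => (V.getD r (0, 0)).1).sum))
      (Nat.add (packCount P₂) ((cs.map fun r => (V.getD r (0, 0)).2).sum))

/-- The linear part for one generator, from packed counts. -/
noncomputable def linFast (B : BCert) (V : List (ℕ × ℕ)) (j : ℕ) : Bool :=
  fastEq B.q B.D.nvar V (B.D.combo.getD (PC.pVar j) [])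
      (B.scaled (PC.pVar j :: B.D.betaW (B.D.P.powWord j))) [] &&
    (List.range j).all fun i => fastEq B.q B.D.nvar V (B.D.combo.getD (PC.cVar j i) [])
      (B.scaled (PC.cVar j i :: B.D.betaW (B.D.P.cjWord j i))) (B.scaled (B.D.beta.getD i []))

theorem linWith_of_fast (B : BCert) (es : List (List ℕ × List ℕ)) (V : List (ℕ × ℕ))
    (hlen : es.length = V.length)
    (hvec : (es.zip V).all (fun p => vecOK B.D.nvar p.1 p.2) = true) (hsmall : comboSmall B = true)
    (h : ∀ j < B.D.P.n, linFast B V j = true) : linWith B es = true := by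
  have hr : ∀ r, ((∀ x ∈ (es.getD r ([], [])).1, x < B.D.nvar) ∧
      (es.getD r ([], [])).1.length < 32768 ∧
      packCount (es.getD r ([], [])).1 = (V.getD r (0, 0)).1) ∧
      ((∀ x ∈ (es.getD r ([], [])).2, x < B.D.nvar) ∧
      (es.getD r ([], [])).2.length < 32768 ∧
      packCount (es.getD r ([], [])).2 = (V.getD r (0, 0)).2) := fun r => by
    by_cases hi : r < es.length
    · have h1 := List.all_eq_true.1 hvec (es[r], V[r]'(by omega)) (by
        rw [List.mem_iff_getElem]
        exact ⟨r, by simp; omega, by simp⟩)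
      simp only [vecOK, Bool.and_eq_true, Nat.blt_eq, List.all_eq_true] at h1
      rw [List.getD_eq_getElem _ _ hi, List.getD_eq_getElem _ _ (by omega)]
      exact ⟨⟨h1.1.1.1.1.1, h1.1.1.1.2, Nat.eq_of_beq_eq_true h1.1.2⟩,
        h1.1.1.1.1.2, h1.1.1.2, Nat.eq_of_beq_eq_true h1.2⟩
    · rw [List.getD_eq_default _ _ (by omega), List.getD_eq_default _ _ (by omega)]
      simp [packCount]
  simp only [comboSmall, Bool.and_eq_true, List.all_eq_true, List.mem_range, Nat.ble_eq] at hsmall
  obtain ⟨hc, hP⟩ := hsmall
  have hcs : ∀ k, (B.D.combo.getD k []).length ≤ 500 := fun k => by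
    by_cases hk : k < B.D.combo.length
    · rw [List.getD_eq_getElem _ _ hk]
      exact hc _ (List.getElem_mem hk)
    · rw [List.getD_eq_default _ _ (by omega)]
      exact Nat.zero_le _
  have main : ∀ (cs P₁ P₂ : List ℕ), cs.length ≤ 500 → P₁.length ≤ 50000 → P₂.length ≤ 50000 →
      fastEq B.q B.D.nvar V cs P₁ P₂ = true →
      sameForm B.q B.D.nvar (P₁ ++ cs.flatMap fun r => (es.getD r ([], [])).1)
        (P₂ ++ cs.flatMap fun r => (es.getD r ([], [])).2) = true := by
    intro cs P₁ P₂ hcs' hP₁ hP₂ hf
    simp only [fastEq, Bool.and_eq_true, List.all_eq_true, Nat.blt_eq] at hf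
    obtain ⟨⟨b1, b2⟩, hd⟩ := hf
    have bound : ∀ (u : ℕ → List ℕ), (∀ r, (u r).length < 32768) → ∀ L : List ℕ,
        (L.flatMap u).length ≤ L.length * 32767 := fun u hu L => by
      induction L with
      | nil => simp
      | cons a L ih =>
        rw [List.flatMap_cons, List.length_append, List.length_cons, Nat.succ_mul]
        have := hu a
        omega
    have pk : ∀ (u : ℕ → List ℕ) (w : ℕ → ℕ), (∀ r, packCount (u r) = w r) → ∀ P L : List ℕ,
        packCount (P ++ L.flatMap u) = packCount P + (L.map w).sum := fun u w hu P L => by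
      simp only [packCount, List.map_append, List.sum_append]
      congr 1
      induction L with
      | nil => rfl
      | cons a L ih =>
        rw [List.flatMap_cons, List.map_append, List.sum_append, ih, List.map_cons, List.sum_cons, ← hu a]
        rfl
    have mem : ∀ (u : ℕ → List ℕ) (P : List ℕ), (∀ x ∈ P, x < B.D.nvar) →
        (∀ r, ∀ x ∈ u r, x < B.D.nvar) → ∀ x ∈ P ++ cs.flatMap u, x < B.D.nvar := fun u P hPb hu x hx => by
      rcases List.mem_append.1 hx with hx | hx
      · exact hPb x hx
      · obtain ⟨r, -, hr⟩ := List.mem_flatMap.1 hx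
        exact hu r x hr
    have n1 := mem _ P₁ b1 fun r => (hr r).1.1
    have n2 := mem _ P₂ b2 fun r => (hr r).2.1
    have l1 : (P₁ ++ cs.flatMap fun r => (es.getD r ([], [])).1).length < 16777216 := by
      have := bound _ (fun r => (hr r).1.2.1) cs
      rw [List.length_append]
      omega
    have l2 : (P₂ ++ cs.flatMap fun r => (es.getD r ([], [])).2).length < 16777216 := by
      have := bound _ (fun r => (hr r).2.2.1) cs
      rw [List.length_append]
      omega
    refine sameForm_of n1 n2 l1 l2 fun l hl => ?_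
    have e := digEq_spec hd l hl
    simp only [Nat.add_eq] at e
    rw [← pk _ _ (fun r => (hr r).1.2.2) P₁ cs, ← pk _ _ (fun r => (hr r).2.2.2) P₂ cs,
      packCount_eq _ n1, packCount_eq _ n2, pow_mul, show (16777216 : ℕ) = 2 ^ 24 by norm_num] at e
    rwa [digit_sum hl (fun i => lt_of_le_of_lt List.count_le_length (by simpa using l1)),
      digit_sum hl (fun i => lt_of_le_of_lt List.count_le_length (by simpa using l2))] at e
  simp only [linWith, List.all_eq_true, List.mem_range, Bool.and_eq_true]
  intro j hj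
  have h1 := h j hj
  simp only [linFast, List.all_eq_true, List.mem_range, Bool.and_eq_true] at h1
  refine ⟨?_, fun i hi => ?_⟩
  · exact main _ _ [] (hcs _) (hP j hj).1 (by simp) h1.1
  · exact main _ _ _ (hcs _) ((hP j hj).2 i hi).1 ((hP j hj).2 i hi).2 (h1.2 i hi)

variable {G : Type*} [Group G] (C : SchurCert.Code G)

theorem exists_of_mem_layer (D : SchurCert.Cert) {gen : ℕ → G} (hp : 0 < D.P.p)
    (hgen : ∀ i < D.P.n, C.enc (gen i) = D.gens.getD i C.one) :
    ∀ j ≤ D.P.n, ∀ x ∈ D.layer C.mul C.one j, ∃ g ∈ initGroup gen j, C.enc g = x := by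
  intro j
  induction j with
  | zero =>
    intro _ x hx
    rw [SchurCert.Cert.layer, List.mem_singleton] at hx
    exact ⟨1, one_mem _, hx ▸ C.enc_one⟩
  | succ k ih =>
    intro hk x hx
    simp only [SchurCert.Cert.layer, List.mem_flatMap, List.mem_map] at hx
    obtain ⟨e, -, y, hy, rfl⟩ := hx
    obtain ⟨g, hg, rfl⟩ := ih (by omega) y hy
    refine ⟨g * gen k ^ e, mul_mem (initGroup_mono gen (Nat.le_succ k) hg)
      (pow_mem (mem_initGroup gen (Nat.lt_succ_self k)) e), ?_⟩
    rw [C.enc_mul, enc_pow, hgen k (by omega)]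

theorem groupOK_of (D : SchurCert.Cert) {gen : ℕ → G} (hp : 0 < D.P.p)
    (hgen : ∀ i < D.P.n, C.enc (gen i) = D.gens.getD i C.one)
    (hrel : ∀ j < D.P.n, relsOK D C.mul C.one j = true)
    (hout : ∀ j < D.P.n, gen j ∉ initGroup gen j) : D.groupOK C.mul C.one = true := by
  simp only [SchurCert.Cert.groupOK, List.all_eq_true, List.mem_range]
  intro j hj
  have h := hrel j hj
  simp only [relsOK, Bool.and_eq_true] at h
  simp only [Bool.and_eq_true, Bool.not_eq_true']
  refine ⟨h, ?_⟩
  rw [Bool.eq_false_iff]
  intro hany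
  obtain ⟨x, hx, he⟩ := List.any_eq_true.1 hany
  obtain ⟨g, hg, rfl⟩ := exists_of_mem_layer C D hp hgen j hj.le x hx
  rw [← hgen j hj] at he
  exact hout j hj (C.enc_inj (Nat.eq_of_beq_eq_true he) ▸ hg)

theorem check_of (B : BCert) {gen : ℕ → G} {es : List (List ℕ × List ℕ)} (hwf : B.D.P.wf = true)
    (hp : 0 < B.D.P.p) (hgen : ∀ i < B.D.P.n, C.enc (gen i) = B.D.gens.getD i C.one)
    (hrel : ∀ j < B.D.P.n, relsOK B.D C.mul C.one j = true)
    (hout : ∀ j < B.D.P.n, gen j ∉ initGroup gen j)
    (hrows : B.D.rows.all (B.rowOK C.mul C.one) = true)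
    (hlen : es.length = B.D.rows.length)
    (hred : (B.D.rows.zip es).all (fun p => redOK B.q B.D.nvar (B.D.rowEq p.1) p.2) = true)
    (hkills : B.kills.all (fun L => redOK B.q B.D.nvar (L, []) (L, [])) = true)
    (hsmall : comboSmall B = true)
    (hlin : linWith B (es ++ B.kills.map fun L => (L, [])) = true) :
    B.check C.mul C.one = true := by
  have hlin' : B.linOK = true := by
    refine linWith_of_reduced B B.eqs _ (by simp [BCert.eqs, hlen]) (fun i hi => ?_) hsmall hlin
    simp only [BCert.eqs, List.length_append, List.length_map] at hi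
    unfold BCert.eqs
    by_cases hi' : i < B.D.rows.length
    · rw [List.getD_append _ _ _ _ (by simpa using hi'), List.getD_append _ _ _ _ (by omega),
        List.getD_eq_getElem _ _ (by simpa using hi'), List.getD_eq_getElem _ _ (by omega),
        List.getElem_map]
      exact List.all_eq_true.1 hred (B.D.rows[i], es[i]'(by omega)) (by
        rw [List.mem_iff_getElem]
        exact ⟨i, by simp; omega, by simp⟩)
    · rw [List.getD_append_right _ _ _ _ (by simpa using hi'), List.getD_append_right _ _ _ _ (by omega),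
        List.length_map, hlen, List.getD_eq_getElem _ _ (by simp; omega), List.getElem_map]
      exact List.all_eq_true.1 hkills _ (List.getElem_mem _)
  simp only [BCert.check, Bool.and_eq_true]
  exact ⟨⟨⟨hwf, groupOK_of C B.D hp hgen hrel hout⟩, hrows⟩, hlin'⟩

/-- A set of points invariant under the first generators and not under the next one. -/
theorem not_mem_initGroup_of_orbit {N : ℕ} {K : Subgroup (Equiv.Perm (Fin N))} {gen : ℕ → K}
    {j : ℕ} (O : List (Fin N)) (hclosed : ∀ i < j, ∀ o ∈ O, (gen i).1 o ∈ O) {o : Fin N} (ho : o ∈ O)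
    (hout : (gen j).1 o ∉ O) : gen j ∉ initGroup gen j := by
  intro h
  rw [initGroup, ← Subgroup.mem_toSubmonoid, Subgroup.closure_toSubmonoid_of_finite] at h
  refine hout ?_
  suffices ∀ o ∈ O, (gen j).1 o ∈ O from this o ho
  refine Submonoid.closure_induction (motive := fun g _ => ∀ o ∈ O, g.1 o ∈ O) ?_ ?_ ?_ h
  · rintro g ⟨i, hi, rfl⟩
    exact hclosed i hi
  · exact fun o ho => ho
  · exact fun a b _ _ ha hb o ho => ha _ (hb o ho)

end Cfsg.Agent.SporOut
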