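import Cfsg.Agent.SporOut.RuFrame
import Cfsg.Agent.SporOut.RuSchurData
import Cfsg.Agent.SporOut.CertFast
import Cfsg.Agent.SporOut.RuSchurRed
/-! Chunks of the rows of a certificate. -/

set_option autoImplicit false
set_option maxRecDepth 100000

namespace Cfsg.Agent.SporOut.Ru

open Cfsg.Agent.SchurCert Cfsg.Agent.SchurBound

/-- A chunk of rows: validity and reduced equations. -/
noncomputable def rowChunk (B : BCert) (red : List (List ℕ × List ℕ)) (w k : ℕ) : Bool :=
  ((B.D.rows.zip red).drop (w * k)).take w |>.all fun p =>
    B.rowOK (mulC frame chainA) (oneC chainA) p.1 && redOK B.q B.D.nvar (B.D.rowEq p.1) p.2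

/-- One orbit witness. -/
noncomputable def witOK (j : ℕ) : Bool :=
  let O := twoWit.getD j []
  (O.all fun o => Nat.blt o 4060) && (((List.range j).all fun i => O.all fun o =>
      O.any fun o' => Nat.beq o' (frame.run (twoGens.getD i 1) o)) &&
    match O with
    | [] => false
    | o :: _ => !(O.any fun o' => Nat.beq o' (frame.run (twoGens.getD j 1) o)))

end Cfsg.Agent.SporOut.Ru
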