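import Cfsg.Agent.SporOut.RuFrame
import Cfsg.Agent.SporOut.RuSchurData
import Cfsg.Agent.SporOut.RuSchurDefs
import Cfsg.Agent.SporOut.RuSchurVec

/-! The small checks of the certificates. -/

set_option autoImplicit false
set_option maxRecDepth 100000

namespace Cfsg.Agent.SporOut.Ru

open Cfsg.Agent.SchurCert Cfsg.Agent.SchurBound

theorem twoRank_wf : twoRankCert.D.P.wf = true := by
  decide +kernel

theorem two_rel0 : relsOK twoRankCert.D (mulC frame chainA) (oneC chainA) 0 = true := by
  decide +kernel

theorem two_rel1 : relsOK twoRankCert.D (mulC frame chainA) (oneC chainA) 1 = true := by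
  decide +kernel

theorem two_rel2 : relsOK twoRankCert.D (mulC frame chainA) (oneC chainA) 2 = true := by
  decide +kernel

theorem two_rel3 : relsOK twoRankCert.D (mulC frame chainA) (oneC chainA) 3 = true := by
  decide +kernel

theorem two_rel4 : relsOK twoRankCert.D (mulC frame chainA) (oneC chainA) 4 = true := by
  decide +kernel

theorem two_rel5 : relsOK twoRankCert.D (mulC frame chainA) (oneC chainA) 5 = true := by
  decide +kernel

theorem two_rel6 : relsOK twoRankCert.D (mulC frame chainA) (oneC chainA) 6 = true := by
  decide +kernel

theorem two_rel7 : relsOK twoRankCert.D (mulC frame chainA) (oneC chainA) 7 = true := by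
  decide +kernel

theorem two_rel8 : relsOK twoRankCert.D (mulC frame chainA) (oneC chainA) 8 = true := by
  decide +kernel

theorem two_rel9 : relsOK twoRankCert.D (mulC frame chainA) (oneC chainA) 9 = true := by
  decide +kernel

theorem two_rel10 : relsOK twoRankCert.D (mulC frame chainA) (oneC chainA) 10 = true := by
  decide +kernel

theorem two_rel11 : relsOK twoRankCert.D (mulC frame chainA) (oneC chainA) 11 = true := by
  decide +kernel

theorem two_rel12 : relsOK twoRankCert.D (mulC frame chainA) (oneC chainA) 12 = true := by
  decide +kernel

theorem two_rel13 : relsOK twoRankCert.D (mulC frame chainA) (oneC chainA) 13 = true := by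
  decide +kernel

theorem two_wit : ∀ j : Fin 14, witOK j.val = true := by
  decide +kernel

theorem twoRank_kills : twoRankCert.kills.all (fun L => redOK twoRankCert.q twoRankCert.D.nvar (L, []) (L, [])) = true := by
  decide +kernel

theorem twoRank_small : comboSmall twoRankCert = true := by
  decide +kernel

theorem twoRank_vec : ((twoRankRed ++ twoRankCert.kills.map fun L => (L, [])).zip twoRankVec).all (fun p => vecOK twoRankCert.D.nvar p.1 p.2) = true := by
  decide +kernel

theorem twoRank_lin0 : linFast twoRankCert twoRankVec 0 = true := by
  decide +kernel

theorem twoRank_lin1 : linFast twoRankCert twoRankVec 1 = true := by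
  decide +kernel

theorem twoRank_lin2 : linFast twoRankCert twoRankVec 2 = true := by
  decide +kernel

theorem twoRank_lin3 : linFast twoRankCert twoRankVec 3 = true := by
  decide +kernel

theorem twoRank_lin4 : linFast twoRankCert twoRankVec 4 = true := by
  decide +kernel

theorem twoRank_lin5 : linFast twoRankCert twoRankVec 5 = true := by
  decide +kernel

theorem twoRank_lin6 : linFast twoRankCert twoRankVec 6 = true := by
  decide +kernel

theorem twoRank_lin7 : linFast twoRankCert twoRankVec 7 = true := by
  decide +kernel

theorem twoRank_lin8 : linFast twoRankCert twoRankVec 8 = true := by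
  decide +kernel

theorem twoRank_lin9 : linFast twoRankCert twoRankVec 9 = true := by
  decide +kernel

theorem twoRank_lin10 : linFast twoRankCert twoRankVec 10 = true := by
  decide +kernel

theorem twoRank_lin11 : linFast twoRankCert twoRankVec 11 = true := by
  decide +kernel

theorem twoRank_lin12 : linFast twoRankCert twoRankVec 12 = true := by
  decide +kernel

theorem twoRank_lin13 : linFast twoRankCert twoRankVec 13 = true := by
  decide +kernel

theorem twoRank_lin : linWith twoRankCert (twoRankRed ++ twoRankCert.kills.map fun L => (L, [])) = true :=
  linWith_of_fast _ _ twoRankVec (by decide +kernel) twoRank_vec twoRank_small (fun j hj => by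
    replace hj : j < 14 := hj
    interval_cases j
    all_goals first
      | exact twoRank_lin0
      | exact twoRank_lin1
      | exact twoRank_lin2
      | exact twoRank_lin3
      | exact twoRank_lin4
      | exact twoRank_lin5
      | exact twoRank_lin6
      | exact twoRank_lin7
      | exact twoRank_lin8
      | exact twoRank_lin9
      | exact twoRank_lin10
      | exact twoRank_lin11
      | exact twoRank_lin12
      | exact twoRank_lin13
  )

theorem twoExp_kills : twoExpCert.kills.all (fun L => redOK twoExpCert.q twoExpCert.D.nvar (L, []) (L, [])) = true := by
  decide +kernel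

theorem twoExp_small : comboSmall twoExpCert = true := by
  decide +kernel

theorem twoExp_vec : ((twoExpRed ++ twoExpCert.kills.map fun L => (L, [])).zip twoExpVec).all (fun p => vecOK twoExpCert.D.nvar p.1 p.2) = true := by
  decide +kernel

theorem twoExp_lin0 : linFast twoExpCert twoExpVec 0 = true := by
  decide +kernel

theorem twoExp_lin1 : linFast twoExpCert twoExpVec 1 = true := by
  decide +kernel

theorem twoExp_lin2 : linFast twoExpCert twoExpVec 2 = true := by
  decide +kernel

theorem twoExp_lin3 : linFast twoExpCert twoExpVec 3 = true := by
  decide +kernel

theorem twoExp_lin4 : linFast twoExpCert twoExpVec 4 = true := by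
  decide +kernel

theorem twoExp_lin5 : linFast twoExpCert twoExpVec 5 = true := by
  decide +kernel

theorem twoExp_lin6 : linFast twoExpCert twoExpVec 6 = true := by
  decide +kernel

theorem twoExp_lin7 : linFast twoExpCert twoExpVec 7 = true := by
  decide +kernel

theorem twoExp_lin8 : linFast twoExpCert twoExpVec 8 = true := by
  decide +kernel

theorem twoExp_lin9 : linFast twoExpCert twoExpVec 9 = true := by
  decide +kernel

theorem twoExp_lin10 : linFast twoExpCert twoExpVec 10 = true := by
  decide +kernel

theorem twoExp_lin11 : linFast twoExpCert twoExpVec 11 = true := by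
  decide +kernel

theorem twoExp_lin12 : linFast twoExpCert twoExpVec 12 = true := by
  decide +kernel

theorem twoExp_lin13 : linFast twoExpCert twoExpVec 13 = true := by
  decide +kernel

theorem twoExp_lin : linWith twoExpCert (twoExpRed ++ twoExpCert.kills.map fun L => (L, [])) = true :=
  linWith_of_fast _ _ twoExpVec (by decide +kernel) twoExp_vec twoExp_small (fun j hj => by
    replace hj : j < 14 := hj
    interval_cases j
    all_goals first
      | exact twoExp_lin0
      | exact twoExp_lin1
      | exact twoExp_lin2
      | exact twoExp_lin3
      | exact twoExp_lin4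
      | exact twoExp_lin5
      | exact twoExp_lin6
      | exact twoExp_lin7
      | exact twoExp_lin8
      | exact twoExp_lin9
      | exact twoExp_lin10
      | exact twoExp_lin11
      | exact twoExp_lin12
      | exact twoExp_lin13
  )

theorem threeCert_check : threeCert.check (mulC frame chainA) (oneC chainA) = true := by decide +kernel

theorem fiveCert_check : fiveCert.check (mulC frame chainA) (oneC chainA) = true := by decide +kernel

/-- The words of a list have the listed codes. -/
noncomputable def wordsOK (ws : List ℕ) (cs : List ℕ) : Bool :=
  (ws.all fun c => frame.ok c) && decide (ws.map (encW frame chainA) = cs)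

theorem words_check : wordsOK threeGens threeCert.gens = true ∧ wordsOK threeFus threeCert.gs = true ∧
    wordsOK fiveGens fiveCert.gens = true ∧ wordsOK fiveFus fiveCert.gs = true ∧
    wordsOK twoGens twoRankCert.D.gens = true ∧ wordsOK twoRankFus twoRankCert.D.gs = true ∧
    wordsOK twoGens twoExpCert.D.gens = true ∧ wordsOK twoExpFus twoExpCert.D.gs = true := by
  decide +kernel

end Cfsg.Agent.SporOut.Ru
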