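import Cfsg.Agent.SporOut.RuFrame
import Cfsg.Agent.SporOut.RuSchurData
import Cfsg.Agent.SporOut.RuSchurDefs

/-! Checks of chunks of rows. -/

set_option autoImplicit false
set_option maxRecDepth 100000

namespace Cfsg.Agent.SporOut.Ru

open Cfsg.Agent.SchurCert Cfsg.Agent.SchurBound

theorem twoRank_chunk0 : rowChunk twoRankCert twoRankRed 5 0 = true := by
  decide +kernel

theorem twoRank_chunk3 : rowChunk twoRankCert twoRankRed 5 3 = true := by
  decide +kernel

theorem twoRank_chunk6 : rowChunk twoRankCert twoRankRed 5 6 = true := by
  decide +kernel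

theorem twoRank_chunk9 : rowChunk twoRankCert twoRankRed 5 9 = true := by
  decide +kernel

theorem twoRank_chunk12 : rowChunk twoRankCert twoRankRed 5 12 = true := by
  decide +kernel

theorem twoRank_chunk15 : rowChunk twoRankCert twoRankRed 5 15 = true := by
  decide +kernel

theorem twoRank_chunk18 : rowChunk twoRankCert twoRankRed 5 18 = true := by
  decide +kernel

theorem twoExp_chunk2 : rowChunk twoExpCert twoExpRed 5 2 = true := by
  decide +kernel

theorem twoExp_chunk5 : rowChunk twoExpCert twoExpRed 5 5 = true := by
  decide +kernel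

theorem twoExp_chunk8 : rowChunk twoExpCert twoExpRed 5 8 = true := by
  decide +kernel

theorem twoExp_chunk11 : rowChunk twoExpCert twoExpRed 5 11 = true := by
  decide +kernel

theorem twoExp_chunk14 : rowChunk twoExpCert twoExpRed 5 14 = true := by
  decide +kernel

theorem twoExp_chunk17 : rowChunk twoExpCert twoExpRed 5 17 = true := by
  decide +kernel

theorem twoExp_chunk20 : rowChunk twoExpCert twoExpRed 5 20 = true := by
  decide +kernel

end Cfsg.Agent.SporOut.Ru
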