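import Cfsg.Agent.SporOut.RuFrame
import Cfsg.Agent.SporOut.RuSchurData
import Cfsg.Agent.SporOut.RuSchurDefs

/-! Checks of chunks of rows. -/

set_option autoImplicit false
set_option maxRecDepth 100000

namespace Cfsg.Agent.SporOut.Ru

open Cfsg.Agent.SchurCert Cfsg.Agent.SchurBound

theorem twoRank_chunk1 : rowChunk twoRankCert twoRankRed 5 1 = true := by
  decide +kernel

theorem twoRank_chunk4 : rowChunk twoRankCert twoRankRed 5 4 = true := by
  decide +kernel

theorem twoRank_chunk7 : rowChunk twoRankCert twoRankRed 5 7 = true := by
  decide +kernel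

theorem twoRank_chunk10 : rowChunk twoRankCert twoRankRed 5 10 = true := by
  decide +kernel

theorem twoRank_chunk13 : rowChunk twoRankCert twoRankRed 5 13 = true := by
  decide +kernel

theorem twoRank_chunk16 : rowChunk twoRankCert twoRankRed 5 16 = true := by
  decide +kernel

theorem twoExp_chunk0 : rowChunk twoExpCert twoExpRed 5 0 = true := by
  decide +kernel

theorem twoExp_chunk3 : rowChunk twoExpCert twoExpRed 5 3 = true := by
  decide +kernel

theorem twoExp_chunk6 : rowChunk twoExpCert twoExpRed 5 6 = true := by
  decide +kernel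

theorem twoExp_chunk9 : rowChunk twoExpCert twoExpRed 5 9 = true := by
  decide +kernel

theorem twoExp_chunk12 : rowChunk twoExpCert twoExpRed 5 12 = true := by
  decide +kernel

theorem twoExp_chunk15 : rowChunk twoExpCert twoExpRed 5 15 = true := by
  decide +kernel

theorem twoExp_chunk18 : rowChunk twoExpCert twoExpRed 5 18 = true := by
  decide +kernel

end Cfsg.Agent.SporOut.Ru
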