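import Cfsg.Agent.SporOut.RuFrame
import Cfsg.Agent.SporOut.RuSchurData
import Cfsg.Agent.SporOut.RuSchurDefs

/-! Checks of chunks of rows. -/

set_option autoImplicit false
set_option maxRecDepth 100000

namespace Cfsg.Agent.SporOut.Ru

open Cfsg.Agent.SchurCert Cfsg.Agent.SchurBound

theorem twoRank_chunk2 : rowChunk twoRankCert twoRankRed 5 2 = true := by
  decide +kernel

theorem twoRank_chunk5 : rowChunk twoRankCert twoRankRed 5 5 = true := by
  decide +kernel

theorem twoRank_chunk8 : rowChunk twoRankCert twoRankRed 5 8 = true := by
  decide +kernel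

theorem twoRank_chunk11 : rowChunk twoRankCert twoRankRed 5 11 = true := by
  decide +kernel

theorem twoRank_chunk14 : rowChunk twoRankCert twoRankRed 5 14 = true := by
  decide +kernel

theorem twoRank_chunk17 : rowChunk twoRankCert twoRankRed 5 17 = true := by
  decide +kernel

theorem twoExp_chunk1 : rowChunk twoExpCert twoExpRed 5 1 = true := by
  decide +kernel

theorem twoExp_chunk4 : rowChunk twoExpCert twoExpRed 5 4 = true := by
  decide +kernel

theorem twoExp_chunk7 : rowChunk twoExpCert twoExpRed 5 7 = true := by
  decide +kernel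

theorem twoExp_chunk10 : rowChunk twoExpCert twoExpRed 5 10 = true := by
  decide +kernel

theorem twoExp_chunk13 : rowChunk twoExpCert twoExpRed 5 13 = true := by
  decide +kernel

theorem twoExp_chunk16 : rowChunk twoExpCert twoExpRed 5 16 = true := by
  decide +kernel

theorem twoExp_chunk19 : rowChunk twoExpCert twoExpRed 5 19 = true := by
  decide +kernel

end Cfsg.Agent.SporOut.Ru
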