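import Cfsg.Agent.SporOut.RuOut
import Cfsg.Agent.SporOut.RuSchurCheck
import Cfsg.Agent.SporOut.RuSchurRows0
import Cfsg.Agent.SporOut.RuSchurRows1
import Cfsg.Agent.SporOut.RuSchurRows2

/-!
The Schur multiplier of the Rudvalis permutation group has order dividing two.
-/

set_option autoImplicit false
set_option maxRecDepth 100000

namespace Cfsg.Agent.SporOut.Ru

open Cfsg.Agent.CosetCert Cfsg.Agent.SchurCert Cfsg.Agent.SchurBound

theorem frame_invol : frame.Invol := fun l h1 h2 => by
  refine Equiv.ext fun i => Fin.ext ?_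
  show (sig l (sig l i) : ℕ) = i
  rw [sig_apply h1 h2, sig_apply h1 h2]
  exact (look_spec h1 h2 i).2

/-- The code of the group. -/
noncomputable def code (hK : Nat.card K = 145926144000) : Code K :=
  siftCode (chainA_valid hK) frame_valid frame_invol (by norm_num)

theorem enc_el (hK : Nat.card K = 145926144000) (c : ℕ) (h : frame.ok c = true) :
    (code hK).enc (el c) = encW frame chainA c := by
  have e : (code hK).enc (el c) = encC (chainA_valid hK) (el c).1 := rfl
  rw [e, el_val h, encC_val (chainA_valid hK) frame_valid h]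

theorem getD_map_ok (f : ℕ → ℕ) (ws : List ℕ) (d : ℕ) (i : ℕ) :
    (∃ c ∈ ws, (ws.map f).getD i d = f c) ∨ (ws.map f).getD i d = d := by
  rw [List.getD_eq_getElem?_getD, List.getElem?_map]
  cases hi : ws[i]? with
  | none => exact Or.inr rfl
  | some c => exact Or.inl ⟨c, List.mem_of_getElem? hi, rfl⟩

theorem exists_wits (hK : Nat.card K = 145926144000) {ws cs : List ℕ} (h : wordsOK ws cs = true)
    (i : ℕ) : ∃ g : K, (code hK).enc g = cs.getD i (code hK).one := by
  simp only [wordsOK, Bool.and_eq_true, List.all_eq_true, decide_eq_true_eq] at h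
  obtain ⟨hok, hcs⟩ := h
  rcases getD_map_ok (encW frame chainA) ws (code hK).one i with ⟨c, hc, e⟩ | e
  · exact ⟨el c, (enc_el hK c (hok c hc)).trans (e.symm.trans (congrArg (fun L => List.getD L i (code hK).one) hcs))⟩
  · exact ⟨1, (code hK).enc_one.trans (e.symm.trans (congrArg (fun L => List.getD L i (code hK).one) hcs))⟩

theorem not_dvd_of_cert (hK : Nat.card K = 145926144000) (D : SchurCert.Cert) (p q m : ℕ)
    [Fact p.Prime] (hp : D.P.p = p) (hq : p ^ D.P.n = q)
    {wg wf : List ℕ} (hg : wordsOK wg D.gens = true) (hf : wordsOK wf D.gs = true)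
    (hchk : D.check (mulC frame chainA) (oneC chainA) = true) (hm : 145926144000 = q * m)
    (hpm : ¬ p ∣ m) : ¬ p ∣ Nat.card (CentralExt.schurMult K) := by
  classical
  have hfinite : Finite K := Nat.finite_of_card_ne_zero (by rw [hK]; norm_num)
  choose gen hgen using exists_wits hK hg
  choose gs hgs using exists_wits hK hf
  have hchk' : D.check (code hK).mul (code hK).one = true := hchk
  have hc' := hchk'
  simp only [SchurCert.Cert.check, Bool.and_eq_true] at hc'
  obtain ⟨-, hcard⟩ := card_initGroup_of_groupOK (code hK) D (hp ▸ Fact.out) gen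
    (fun i _ => hgen i) hc'.1.1.1 hc'.1.1.2
  rw [hp, hq] at hcard
  refine not_dvd_schurMult_of_cert (code hK) D p hp gen gs (fun i _ => hgen i) hgs ?_ hchk'
  rw [index_initGroup hK hcard hm]
  exact hpm

/-- The generators of a Sylow 2-subgroup. -/
noncomputable def twoGen (i : ℕ) : K := el (twoGens.getD i 1)

theorem twoGens_ok : ∀ i : Fin 14, frame.ok (twoGens.getD i.val 1) = true := by decide +kernel

theorem twoGens_length : twoGens.length = 14 := by decide +kernel

theorem twoRank_gens : twoRankCert.D.gens = twoGens.map (encW frame chainA) := by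
  obtain ⟨-, -, -, -, h, -⟩ := words_check
  rw [wordsOK, Bool.and_eq_true, decide_eq_true_eq] at h
  exact h.2.symm

theorem enc_twoGen (hK : Nat.card K = 145926144000) (i : ℕ) (hi : i < 14) :
    (code hK).enc (twoGen i) = twoRankCert.D.gens.getD i (code hK).one := by
  rw [twoGen, enc_el hK _ (twoGens_ok ⟨i, hi⟩), twoRank_gens,
    List.getD_eq_getElem _ _ (twoGens_length.symm ▸ hi),
    List.getD_eq_getElem _ _ (by rw [List.length_map, twoGens_length]; exact hi), List.getElem_map]

theorem two_rels : ∀ {j : ℕ}, j < 14 → relsOK twoRankCert.D (mulC frame chainA) (oneC chainA) j = true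
  | 0, _ => two_rel0
  | 1, _ => two_rel1
  | 2, _ => two_rel2
  | 3, _ => two_rel3
  | 4, _ => two_rel4
  | 5, _ => two_rel5
  | 6, _ => two_rel6
  | 7, _ => two_rel7
  | 8, _ => two_rel8
  | 9, _ => two_rel9
  | 10, _ => two_rel10
  | 11, _ => two_rel11
  | 12, _ => two_rel12
  | 13, _ => two_rel13
  | _ + 14, h => absurd h (by omega)

theorem img_congr {D D' : SchurCert.Cert} (hg : D.gens = D'.gens) (mul : ℕ → ℕ → ℕ) (one : ℕ) :
    ∀ W : List ℕ, D.img mul one W = D'.img mul one W
  | [] => rfl
  | i :: W => by rw [SchurCert.Cert.img, SchurCert.Cert.img, hg, img_congr hg mul one W]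

theorem relsOK_congr {D D' : SchurCert.Cert} (hP : D.P = D'.P) (hg : D.gens = D'.gens)
    (mul : ℕ → ℕ → ℕ) (one j : ℕ) : relsOK D mul one j = relsOK D' mul one j := by
  simp only [relsOK, img_congr hg, hP, hg]

theorem twoGen_out {j : ℕ} (hj : j < 14) : twoGen j ∉ initGroup twoGen j := by
  have h := two_wit ⟨j, hj⟩
  simp only [witOK, Bool.and_eq_true, List.all_eq_true, List.mem_range, List.any_eq_true,
    Nat.blt_eq] at h
  obtain ⟨hlt, hcl, hout⟩ := h
  let O : List (Fin 4060) := (twoWit.getD j []).pmap (fun o ho => (⟨o, ho⟩ : Fin 4060)) hlt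
  have mem : ∀ x : Fin 4060, x ∈ O ↔ x.val ∈ twoWit.getD j [] := fun x => by
    simp only [O, List.mem_pmap]
    exact ⟨fun ⟨o, ho, e⟩ => e ▸ ho, fun hx => ⟨x.val, hx, rfl⟩⟩
  have app : ∀ (i : ℕ), i < 14 → ∀ o : Fin 4060,
      (((twoGen i).1 o : Fin 4060) : ℕ) = frame.run (twoGens.getD i 1) o := fun i hi o => by
    rw [twoGen, el_val (twoGens_ok ⟨i, hi⟩), Frame.val_apply frame_valid (twoGens_ok ⟨i, hi⟩)]
  cases hO : twoWit.getD j [] with
  | nil => rw [hO] at hout; exact absurd hout (by simp)
  | cons o os =>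
    have ho : o ∈ twoWit.getD j [] := by rw [hO]; exact List.mem_cons_self
    rw [hO] at hout
    refine not_mem_initGroup_of_orbit O (fun i hi x hx => ?_) (o := ⟨o, hlt o ho⟩) ((mem _).2 ho) ?_
    · obtain ⟨o', ho', he⟩ := hcl i hi x.val ((mem x).1 hx)
      rw [mem, app i (hi.trans hj)]
      exact Nat.eq_of_beq_eq_true he ▸ ho'
    · rw [mem, app j hj, hO]
      intro hin
      simp only [Bool.not_eq_true', List.any_eq_false] at hout
      exact hout _ hin (Nat.beq_refl _)

/-- The certificate passes, from its pieces. -/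
theorem check_two (hK : Nat.card K = 145926144000) (B : BCert) (red : List (List ℕ × List ℕ)) (m : ℕ)
    (hP : B.D.P = twoRankCert.D.P) (hg : B.D.gens = twoRankCert.D.gens)
    (hlen : red.length = B.D.rows.length) (hm : B.D.rows.length ≤ 5 * m)
    (hch : ∀ k < m, rowChunk B red 5 k = true)
    (hkills : B.kills.all (fun L => redOK B.q B.D.nvar (L, []) (L, [])) = true)
    (hsmall : comboSmall B = true)
    (hlin : linWith B (red ++ B.kills.map fun L => (L, [])) = true) :
    B.check (mulC frame chainA) (oneC chainA) = true := by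
  have hn : B.D.P.n = 14 := by rw [hP]; rfl
  have hall := all_of_chunks (L := B.D.rows.zip red) (w := 5) (m := m)
    (by rw [List.length_zip]; omega) hch
  simp only [List.all_eq_true, Bool.and_eq_true] at hall
  refine check_of (code hK) B (gen := twoGen) (es := red) ?_ ?_ ?_ ?_ ?_ ?_ hlen ?_ hkills hsmall hlin
  · rw [hP]; exact twoRank_wf
  · rw [hP]; exact Nat.two_pos
  · intro i hi
    rw [hg]
    exact enc_twoGen hK i (hn ▸ hi)
  · intro j hj
    rw [relsOK_congr (D' := twoRankCert.D) hP hg]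
    exact two_rels (hn ▸ hj)
  · exact fun j hj => twoGen_out (hn ▸ hj)
  · rw [List.all_eq_true]
    intro r hr
    obtain ⟨i, hi, rfl⟩ := List.getElem_of_mem hr
    exact (hall (B.D.rows[i], red[i]'(by omega)) (by
      rw [List.mem_iff_getElem]
      exact ⟨i, by simp; omega, by simp⟩)).1
  · rw [List.all_eq_true]
    exact fun p hp => (hall p hp).2

theorem twoRank_chunks : ∀ {k : ℕ}, k < 19 → rowChunk twoRankCert twoRankRed 5 k = true
  | 0, _ => twoRank_chunk0
  | 1, _ => twoRank_chunk1
  | 2, _ => twoRank_chunk2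
  | 3, _ => twoRank_chunk3
  | 4, _ => twoRank_chunk4
  | 5, _ => twoRank_chunk5
  | 6, _ => twoRank_chunk6
  | 7, _ => twoRank_chunk7
  | 8, _ => twoRank_chunk8
  | 9, _ => twoRank_chunk9
  | 10, _ => twoRank_chunk10
  | 11, _ => twoRank_chunk11
  | 12, _ => twoRank_chunk12
  | 13, _ => twoRank_chunk13
  | 14, _ => twoRank_chunk14
  | 15, _ => twoRank_chunk15
  | 16, _ => twoRank_chunk16
  | 17, _ => twoRank_chunk17
  | 18, _ => twoRank_chunk18
  | _ + 19, h => absurd h (by omega)

theorem twoRankCert_check (hK : Nat.card K = 145926144000) :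
    twoRankCert.check (mulC frame chainA) (oneC chainA) = true :=
  check_two hK twoRankCert twoRankRed 19 rfl rfl (by decide +kernel) (by decide +kernel)
    (fun _ hk => twoRank_chunks hk) twoRank_kills twoRank_small twoRank_lin

theorem twoExp_chunks : ∀ {k : ℕ}, k < 21 → rowChunk twoExpCert twoExpRed 5 k = true
  | 0, _ => twoExp_chunk0
  | 1, _ => twoExp_chunk1
  | 2, _ => twoExp_chunk2
  | 3, _ => twoExp_chunk3
  | 4, _ => twoExp_chunk4
  | 5, _ => twoExp_chunk5
  | 6, _ => twoExp_chunk6
  | 7, _ => twoExp_chunk7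
  | 8, _ => twoExp_chunk8
  | 9, _ => twoExp_chunk9
  | 10, _ => twoExp_chunk10
  | 11, _ => twoExp_chunk11
  | 12, _ => twoExp_chunk12
  | 13, _ => twoExp_chunk13
  | 14, _ => twoExp_chunk14
  | 15, _ => twoExp_chunk15
  | 16, _ => twoExp_chunk16
  | 17, _ => twoExp_chunk17
  | 18, _ => twoExp_chunk18
  | 19, _ => twoExp_chunk19
  | 20, _ => twoExp_chunk20
  | _ + 21, h => absurd h (by omega)

theorem twoExpCert_check (hK : Nat.card K = 145926144000) :
    twoExpCert.check (mulC frame chainA) (oneC chainA) = true :=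
  check_two hK twoExpCert twoExpRed 21 rfl rfl (by decide +kernel) (by decide +kernel)
    (fun _ hk => twoExp_chunks hk) twoExp_kills twoExp_small twoExp_lin

theorem applies_two (hK : Nat.card K = 145926144000) (B : BCert) (hP : B.D.P = twoRankCert.D.P)
    (hg : B.D.gens = twoRankCert.D.gens) {wf : List ℕ} (hf : wordsOK wf B.D.gs = true)
    (hchk : B.check (mulC frame chainA) (oneC chainA) = true) :
    ∃ gen gsE, Applies (code hK) B 2 gen gsE := by
  classical
  have hfinite : Finite K := Nat.finite_of_card_ne_zero (by rw [hK]; norm_num)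
  choose gs hgs using exists_wits hK hf
  have hn : B.D.P.n = 14 := by rw [hP]; rfl
  have hp2 : B.D.P.p = 2 := by rw [hP]; rfl
  have hgen : ∀ i < B.D.P.n, (code hK).enc (twoGen i) = B.D.gens.getD i (code hK).one :=
    fun i hi => by rw [hg]; exact enc_twoGen hK i (hn ▸ hi)
  have hchk' : B.check (code hK).mul (code hK).one = true := hchk
  have hc' := hchk'
  simp only [BCert.check, Bool.and_eq_true] at hc'
  obtain ⟨-, hcard⟩ := card_initGroup_of_groupOK (code hK) B.D (hp2.symm ▸ Nat.prime_two) twoGen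
    hgen hc'.1.1.1 hc'.1.1.2
  refine ⟨twoGen, gs, ⟨Nat.prime_two, hp2, hgen, hgs, ?_, hchk'⟩⟩
  rw [hp2, hn] at hcard
  rw [hn, index_initGroup hK hcard (show (145926144000 : ℕ) = 2 ^ 14 * 8906625 by norm_num)]
  norm_num

theorem card_schurMult_dvd_two (hK : Nat.card K = 145926144000) :
    Nat.card (CentralExt.schurMult K) ∣ 2 := by
  have hfinite : Finite K := Nat.finite_of_card_ne_zero (by rw [hK]; norm_num)
  obtain ⟨w1, w2, w3, w4, w5, w6, w7, w8⟩ := words_check
  haveI : Fact (Nat.Prime 3) := ⟨Nat.prime_three⟩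
  haveI : Fact (Nat.Prime 5) := ⟨by norm_num⟩
  obtain ⟨g1, f1, a1⟩ := applies_two hK twoRankCert rfl rfl w6 (twoRankCert_check hK)
  obtain ⟨g2, f2, a2⟩ := applies_two hK twoExpCert rfl rfl w8 (twoExpCert_check hK)
  have h2 : (Nat.card (CentralExt.schurMult K)).factorization 2 ≤ 1 * 1 :=
    factorization_schurMult_le_rank (code hK) a1 a2 rfl rfl le_rfl rfl rfl rfl
  rw [← Nat.factorization_le_iff_dvd Nat.card_pos.ne' (by norm_num)]
  intro p
  by_cases hp : p.Prime
  swap
  · simp [Nat.factorization_eq_zero_of_not_prime _ hp]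
  rcases eq_or_ne p 2 with rfl | hp2
  · rw [Nat.prime_two.factorization_self]
    simpa using h2
  haveI : Fact p.Prime := ⟨hp⟩
  suffices hnd : ¬ p ∣ Nat.card (CentralExt.schurMult K) by
    rw [Nat.factorization_eq_zero_of_not_dvd hnd]
    exact Nat.zero_le _
  rcases eq_or_ne p 3 with rfl | hp3
  · exact not_dvd_of_cert hK threeCert 3 27 5404672000 rfl rfl w1 w2 threeCert_check
      (by norm_num) (by norm_num)
  rcases eq_or_ne p 5 with rfl | hp5
  · exact not_dvd_of_cert hK fiveCert 5 125 1167409152 rfl rfl w3 w4 fiveCert_check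
      (by norm_num) (by norm_num)
  refine not_dvd_schurMult_of_sq_not_dvd p ?_
  rw [hK, show (145926144000 : ℕ) = (2 ^ 14 * 3 ^ 3 * 5 ^ 3) * 2639 by norm_num]
  intro h
  have key : ∀ {q : ℕ}, q.Prime → p ≠ q → Nat.Coprime p q := fun hq hne =>
    (Nat.coprime_primes hp hq).2 hne
  have hco : Nat.Coprime (p ^ 2) (2 ^ 14 * 3 ^ 3 * 5 ^ 3) := by
    refine Nat.Coprime.pow_left 2 ?_
    exact (((key Nat.prime_two hp2).pow_right 14).mul_right ((key Nat.prime_three hp3).pow_right 3)).mul_right
      ((key (by norm_num) hp5).pow_right 3)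
  have h' := hco.dvd_of_dvd_mul_left h
  have hle : p ^ 2 ≤ 2639 := Nat.le_of_dvd (by norm_num) h'
  have hp52 : p < 52 := by nlinarith
  have hall : ∀ q < 52, 2 ≤ q → ¬ q ^ 2 ∣ 2639 := by decide +kernel
  exact hall p hp52 hp.two_le h'

/-- Transport: an isomorphic group with a stem cover of degree two has multiplier of order two. -/
theorem hasCyclicSchurMultiplier_two {G : Type*} [Group G] [Finite G]
    (hK : Nat.card K = 145926144000) (e : G ≃* K)
    (hlow : 2 ∣ Nat.card (CentralExt.schurMult G)) : Cfsg.HasCyclicSchurMultiplier G 2 := by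
  obtain ⟨i⟩ := CentralExt.nonempty_schurMult_congr e
  have h : Nat.card (CentralExt.schurMult G) = 2 := by
    refine Nat.dvd_antisymm ?_ hlow
    rw [Nat.card_congr i.toEquiv]
    exact card_schurMult_dvd_two hK
  haveI : Fact (Nat.Prime 2) := ⟨Nat.prime_two⟩
  exact (CentralExt.hasCyclicSchurMultiplier_iff 2).2 ⟨isCyclic_of_prime_card (p := 2) h, h⟩

end Cfsg.Agent.SporOut.Ru
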