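import Cfsg.Agent.SporOut.Sift
import Cfsg.Agent.SchurCert.Cert

/-!
A code for a group sifted through a base of four points: an element is coded by the images of the base,
and products are computed by sifting the left factor.
-/

set_option autoImplicit false

namespace Cfsg.Agent.SporOut

open Cfsg.Agent.CosetCert

variable {N : ℕ}

theorem valF_mono {G : Type*} [Group G] (σ : ℕ → G) {nL : ℕ} : ∀ {f f' n}, okF nL f n = true → f ≤ f' →
    valF σ f' n = valF σ f n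
  | 0, f', n, h, _ => by
    have : n = 1 := Nat.eq_of_beq_eq_true h
    subst this
    cases f' <;> simp [valF]
  | f + 1, 0, n, _, hle => absurd hle (by omega)
  | f + 1, f' + 1, n, h, hle => by
    by_cases h1 : n ≤ 1
    · simp [valF, h1]
    · have e : okF nL (f + 1) n = (Nat.beq n 1 || (Nat.ble 1 (n % 16) && (Nat.ble (n % 16) nL &&
        okF nL f (n / 16)))) := rfl
      rw [e, Bool.or_eq_true] at h
      rcases h with h | h
      · exact absurd (Nat.eq_of_beq_eq_true h).le h1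
      simp only [Bool.and_eq_true] at h
      simp only [valF, if_neg h1]
      rw [valF_mono σ h.2.2 (by omega)]

theorem okF_step {nL : ℕ} : ∀ {a n d}, okF nL a n = true → 1 ≤ d → d ≤ nL → d < 16 →
    okF nL (a + 1) (n * 16 + d) = true := by
  intro a n d h h1 h2 h3
  have e : okF nL (a + 1) (n * 16 + d) = (Nat.beq (n * 16 + d) 1 || (Nat.ble 1 ((n * 16 + d) % 16) &&
      (Nat.ble ((n * 16 + d) % 16) nL && okF nL a ((n * 16 + d) / 16)))) := rfl
  have hm : (n * 16 + d) % 16 = d := by omega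
  have hd : (n * 16 + d) / 16 = n := by omega
  rw [e, hm, hd, h, Nat.ble_eq.mpr h1, Nat.ble_eq.mpr h2]
  simp

theorem okF_pos {nL : ℕ} : ∀ {a n}, okF nL a n = true → 1 ≤ n
  | 0, n, h => (Nat.eq_of_beq_eq_true h).ge
  | a + 1, n, h => by
    have e : okF nL (a + 1) n = (Nat.beq n 1 || (Nat.ble 1 (n % 16) && (Nat.ble (n % 16) nL &&
      okF nL a (n / 16)))) := rfl
    rw [e, Bool.or_eq_true] at h
    rcases h with h | h
    · exact (Nat.eq_of_beq_eq_true h).ge
    · rw [Bool.and_eq_true] at h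
      have := Nat.le_of_ble_eq_true h.1
      omega

/-- For involutory letters, reversing a word inverts its value. -/
theorem revF_spec {G : Type*} [Group G] (σ : ℕ → G) {nL : ℕ}
    (hσ : ∀ l, 1 ≤ l → l ≤ nL → σ l * σ l = 1) : ∀ f n acc a, okF nL f n = true →
    okF nL a acc = true → okF nL (a + f) (revF f n acc) = true ∧
      valF σ (a + f) (revF f n acc) = valF σ a acc * (valF σ f n)⁻¹
  | 0, n, acc, a, _, ha => ⟨ha, by simp [valF]; rfl⟩
  | f + 1, n, acc, a, hn, ha => by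
    have er : revF (f + 1) n acc = cond (Nat.ble n 1) acc (revF f (n / 16) (acc * 16 + n % 16)) := rfl
    have e : okF nL (f + 1) n = (Nat.beq n 1 || (Nat.ble 1 (n % 16) && (Nat.ble (n % 16) nL &&
      okF nL f (n / 16)))) := rfl
    by_cases h1 : n ≤ 1
    · rw [er, Nat.ble_eq.mpr h1]
      refine ⟨?_, ?_⟩
      · show okF nL (a + (f + 1)) acc = true
        clear e er hn
        induction f with
        | zero => exact okF_weaken ha
        | succ k ih => exact okF_weaken ih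
      · show valF σ (a + (f + 1)) acc = _
        rw [valF_mono σ ha (by omega), show valF σ (f + 1) n = 1 by simp [valF, h1], inv_one, mul_one]
    · rw [e, Bool.or_eq_true] at hn
      rcases hn with hn | hn
      · exact absurd (Nat.eq_of_beq_eq_true hn).le h1
      simp only [Bool.and_eq_true, Nat.ble_eq] at hn
      obtain ⟨b1, b2, hn⟩ := hn
      have hb : Nat.ble n 1 = false := by
        rcases h : Nat.ble n 1
        · rfl
        · exact absurd (Nat.le_of_ble_eq_true h) h1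
      obtain ⟨i1, i2⟩ := revF_spec σ hσ f (n / 16) _ (a + 1) hn
        (okF_step ha b1 b2 (Nat.mod_lt _ (by norm_num)))
      rw [er, hb]
      rw [show a + 1 + f = a + (f + 1) by omega] at i1 i2
      refine ⟨i1, i2.trans ?_⟩
      have hpos := okF_pos ha
      have hv : valF σ (a + 1) (acc * 16 + n % 16) = valF σ a acc * σ (n % 16) := by
        have h2 : ¬ acc * 16 + n % 16 ≤ 1 := by omega
        simp only [valF, if_neg h2]
        rw [show (acc * 16 + n % 16) / 16 = acc by omega,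
          show (acc * 16 + n % 16) % 16 = n % 16 by omega]
      rw [hv, show valF σ (f + 1) n = valF σ f (n / 16) * σ (n % 16) by simp [valF, h1],
        mul_inv_rev, inv_eq_of_mul_eq_one_right (hσ _ b1 b2), mul_assoc]
where
  okF_weaken {nL : ℕ} : ∀ {a n}, okF nL a n = true → okF nL (a + 1) n = true
  | 0, n, h => by
    have : n = 1 := Nat.eq_of_beq_eq_true h
    subst this
    rfl
  | a + 1, n, h => by
    have e : ∀ b, okF nL (b + 1) n = (Nat.beq n 1 || (Nat.ble 1 (n % 16) && (Nat.ble (n % 16) nL &&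
      okF nL b (n / 16)))) := fun b => rfl
    rw [e] at h ⊢
    simp only [Bool.or_eq_true, Bool.and_eq_true] at h ⊢
    exact h.imp id (And.imp id (And.imp id okF_weaken))

namespace Frame

variable {F : Frame N}

/-- The letters of a frame square to one. -/
def Invol (F : Frame N) : Prop := ∀ l, 1 ≤ l → l ≤ F.nL → F.σ l * F.σ l = 1

theorem run_rev (hF : F.Valid) (hI : F.Invol) {c : ℕ} (hc : F.ok c = true) (i : Fin N) :
    F.run (revF 96 c 1) (F.val c i : ℕ) = i := by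
  obtain ⟨h1, h2⟩ := revF_spec F.σ hI 96 c 1 0 hc rfl
  rw [Nat.zero_add] at h1 h2
  rw [← val_apply hF h1]
  show ((valF F.σ 96 (revF 96 c 1)) (F.val c i) : ℕ) = i
  rw [h2, show valF F.σ 0 1 = (1 : Equiv.Perm (Fin N)) from rfl, one_mul]
  show (((valF F.σ 96 c)⁻¹ ((valF F.σ 96 c) i)) : ℕ) = i
  rw [Equiv.Perm.inv_def, Equiv.symm_apply_apply]

end Frame

section Code

variable (F : Frame N) (C : Chain)

/-- The packing of four points. -/
noncomputable def pack4 (j0 j1 j2 j3 : ℕ) : ℕ :=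
  Nat.add j0 (Nat.mul 4096 (Nat.add j1 (Nat.mul 4096 (Nat.add j2 (Nat.mul 4096 j3)))))

/-- Fields of a packing. -/
noncomputable def field (c : ℕ) (k : ℕ) : ℕ := Nat.mod (Nat.shiftRight c (Nat.mul 12 k)) 4096

/-- Fourth step of the sifting. -/
noncomputable def app3 (c0 c1 c2 j3 : ℕ) (x : ℕ) : ℕ :=
  F.run c0 (F.run c1 (F.run c2 (F.run
    (C.t3.get 160 (F.run (revF 96 c2 1) (F.run (revF 96 c1 1) (F.run (revF 96 c0 1) j3)))) x)))

/-- Third step of the sifting. -/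
noncomputable def app2 (c0 c1 j2 j3 : ℕ) (x : ℕ) : ℕ :=
  app3 F C c0 c1 (C.t2.get 160 (F.run (revF 96 c1 1) (F.run (revF 96 c0 1) j2))) j3 x

/-- Second step of the sifting. -/
noncomputable def app1 (c0 j1 j2 j3 : ℕ) (x : ℕ) : ℕ :=
  app2 F C c0 (C.t1.get 160 (F.run (revF 96 c0 1) j1)) j2 j3 x

/-- The element with given code applied to a point. -/
noncomputable def applyC (a x : ℕ) : ℕ :=
  app1 F C (C.t0.get 160 (field a 0)) (field a 1) (field a 2) (field a 3) x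

/-- The multiplication of codes. -/
noncomputable def mulC (a b : ℕ) : ℕ :=
  pack4 (applyC F C a (field b 0)) (applyC F C a (field b 1)) (applyC F C a (field b 2))
    (applyC F C a (field b 3))

/-- The code of the identity. -/
noncomputable def oneC : ℕ := pack4 C.b0 C.b1 C.b2 C.b3

/-- The code of a word. -/
noncomputable def encW (c : ℕ) : ℕ :=
  pack4 (F.run c C.b0) (F.run c C.b1) (F.run c C.b2) (F.run c C.b3)

variable {F C}

theorem field_pack4 {j0 j1 j2 j3 : ℕ} (h0 : j0 < 4096) (h1 : j1 < 4096) (h2 : j2 < 4096)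
    (h3 : j3 < 4096) : field (pack4 j0 j1 j2 j3) 0 = j0 ∧ field (pack4 j0 j1 j2 j3) 1 = j1 ∧
      field (pack4 j0 j1 j2 j3) 2 = j2 ∧ field (pack4 j0 j1 j2 j3) 3 = j3 := by
  have e : ∀ c k, field c k = c / 2 ^ (12 * k) % 4096 := fun c k => by
    show (c >>> (12 * k)) % 4096 = _
    rw [Nat.shiftRight_eq_div_pow]
  have p : pack4 j0 j1 j2 j3 = j0 + 4096 * (j1 + 4096 * (j2 + 4096 * j3)) := rfl
  rw [e, e, e, e, p, show (2 : ℕ) ^ (12 * 0) = 1 by norm_num,
    show (2 : ℕ) ^ (12 * 1) = 4096 by norm_num, show (2 : ℕ) ^ (12 * 2) = 16777216 by norm_num,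
    show (2 : ℕ) ^ (12 * 3) = 68719476736 by norm_num]
  refine ⟨?_, ?_, ?_, ?_⟩ <;> omega

/-- The code of an element. -/
noncomputable def encC (hC : C.Valid F) (g : Equiv.Perm (Fin N)) : ℕ :=
  pack4 (g ⟨C.b0, hC.lt0⟩) (g ⟨C.b1, hC.lt1⟩) (g ⟨C.b2, hC.lt2⟩) (g ⟨C.b3, hC.lt3⟩)

theorem applyC_enc (hC : C.Valid F) (hF : F.Valid) (hI : F.Invol) (hN : N ≤ 4096)
    {g : Equiv.Perm (Fin N)} (hg : g ∈ F.K) (x : Fin N) :
    applyC F C (encC hC g) x = (g x : ℕ) := by
  have lt : ∀ i : Fin N, (i : ℕ) < 4096 := fun i => lt_of_lt_of_le i.2 hN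
  obtain ⟨r, rfl⟩ := hC.exists_elt hF hg
  obtain ⟨i0, i1, i2, i3⟩ := hC.images hF r
  obtain ⟨f0, f1, f2, f3⟩ := field_pack4 (lt (C.elt F r ⟨C.b0, hC.lt0⟩))
    (lt (C.elt F r ⟨C.b1, hC.lt1⟩)) (lt (C.elt F r ⟨C.b2, hC.lt2⟩)) (lt (C.elt F r ⟨C.b3, hC.lt3⟩))
  rw [applyC, encC, f0, f1, f2, f3, i0, i1, i2, i3]
  obtain ⟨⟨y0, h0⟩, ⟨y1, h1⟩, ⟨y2, h2⟩, ⟨y3, h3⟩⟩ := r
  obtain ⟨o0, -⟩ := levOK_spec hF (hC.lev0 _ y0.2) h0 hC.lt0
  obtain ⟨o1, -⟩ := levOK_spec hF (hC.lev1 _ y1.2) h1 hC.lt1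
  obtain ⟨o2, -⟩ := levOK_spec hF (hC.lev2 _ y2.2) h2 hC.lt2
  obtain ⟨o3, -⟩ := levOK_spec hF (hC.lev3 _ y3.2) h3 hC.lt3
  simp only [app1, app2, app3]
  rw [Frame.run_rev hF hI o0, Frame.run_rev hF hI o0, Frame.run_rev hF hI o1,
    Frame.run_rev hF hI o0, Frame.run_rev hF hI o1, Frame.run_rev hF hI o2]
  simp only [Chain.elt, Equiv.Perm.mul_apply]
  rw [Frame.val_apply hF o0, Frame.val_apply hF o1, Frame.val_apply hF o2, Frame.val_apply hF o3]

theorem encC_mul (hC : C.Valid F) (hF : F.Valid) (hI : F.Invol) (hN : N ≤ 4096)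
    {g h : Equiv.Perm (Fin N)} (hg : g ∈ F.K) :
    encC hC (g * h) = mulC F C (encC hC g) (encC hC h) := by
  have lt : ∀ i : Fin N, (i : ℕ) < 4096 := fun i => lt_of_lt_of_le i.2 hN
  obtain ⟨f0, f1, f2, f3⟩ := field_pack4 (lt (h ⟨C.b0, hC.lt0⟩))
    (lt (h ⟨C.b1, hC.lt1⟩)) (lt (h ⟨C.b2, hC.lt2⟩)) (lt (h ⟨C.b3, hC.lt3⟩))
  have e : ∀ k (i : Fin N), field (encC hC h) k = (h i : ℕ) →
      applyC F C (encC hC g) (field (encC hC h) k) = ((g * h) i : ℕ) := fun k i hk => by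
    rw [hk, applyC_enc hC hF hI hN hg]
    rfl
  rw [mulC, e 0 ⟨C.b0, hC.lt0⟩ f0, e 1 ⟨C.b1, hC.lt1⟩ f1, e 2 ⟨C.b2, hC.lt2⟩ f2,
    e 3 ⟨C.b3, hC.lt3⟩ f3]
  rfl

/-- The code of a sifted group. -/
noncomputable def siftCode (hC : C.Valid F) (hF : F.Valid) (hI : F.Invol) (hN : N ≤ 4096) :
    SchurCert.Code F.K where
  mul := mulC F C
  one := oneC C
  enc g := encC hC g.1
  enc_one := rfl
  enc_mul a b := encC_mul hC hF hI hN a.2
  enc_inj := fun a b h => by
    have lt : ∀ i : Fin N, (i : ℕ) < 4096 := fun i => lt_of_lt_of_le i.2 hN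
    obtain ⟨a0, a1, a2, a3⟩ := field_pack4 (lt (a.1 ⟨C.b0, hC.lt0⟩))
      (lt (a.1 ⟨C.b1, hC.lt1⟩)) (lt (a.1 ⟨C.b2, hC.lt2⟩)) (lt (a.1 ⟨C.b3, hC.lt3⟩))
    obtain ⟨b0, b1, b2, b3⟩ := field_pack4 (lt (b.1 ⟨C.b0, hC.lt0⟩))
      (lt (b.1 ⟨C.b1, hC.lt1⟩)) (lt (b.1 ⟨C.b2, hC.lt2⟩)) (lt (b.1 ⟨C.b3, hC.lt3⟩))
    simp only [encC] at h
    rw [h] at a0 a1 a2 a3
    exact Subtype.ext (hC.ext hF a.2 b.2 (Fin.ext (a0.symm.trans b0)) (Fin.ext (a1.symm.trans b1))
      (Fin.ext (a2.symm.trans b2)) (Fin.ext (a3.symm.trans b3)))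

theorem encC_val (hC : C.Valid F) (hF : F.Valid) {c : ℕ} (hc : F.ok c = true) :
    encC hC (F.val c) = encW F C c := by
  simp only [encC, encW, Frame.val_apply hF hc]

end Code

end Cfsg.Agent.SporOut
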